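import Groth.Prelude.Def_DEt2
import Mathlib.AlgebraicGeometry.Morphisms.Immersion
import Mathlib.AlgebraicGeometry.Morphisms.Proper

/-!
# Two compactifications are dominated by a third one, with cartesian squares over the open part
-/

set_option autoImplicit false

universe u

open CategoryTheory CategoryTheory.Limits AlgebraicGeometry

namespace Groth.Agent.Dual.H310.DomComp

variable {X Y W Z : Scheme.{u}}

/-- If `k : X ⟶ W` is a dominant open immersion, `j : X ⟶ Z` an open immersion, `h : W ⟶ Z` is separated
and `k ≫ h = j`, then `h⁻¹(j(X)) = k(X)`: the square is cartesian. -/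
theorem isPullback_of_isDominant (k : X ⟶ W) [IsOpenImmersion k] [IsDominant k] (j : X ⟶ Z)
    [IsOpenImmersion j] (h : W ⟶ Z) [IsSeparated h] (w : k ≫ h = j) :
    IsPullback k (𝟙 X) h j := by
  let p : pullback h j ⟶ W := pullback.fst h j
  let q : pullback h j ⟶ X := pullback.snd h j
  let s : X ⟶ pullback h j := pullback.lift k (𝟙 X) (by rw [w, Category.id_comp])
  have hs₁ : s ≫ p = k := pullback.lift_fst _ _ _
  have hs₂ : s ≫ q = 𝟙 X := pullback.lift_snd _ _ _
  have : IsOpenImmersion (s ≫ p) := by rw [hs₁]; infer_instance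
  have : IsOpenImmersion s := IsOpenImmersion.of_comp s p
  have : IsClosedImmersion (s ≫ q) := by rw [hs₂]; infer_instance
  have : IsClosedImmersion s := IsClosedImmersion.of_comp s q
  have hd : DenseRange s := by
    have h1 : Dense (Set.range k) := k.denseRange
    have h2 : Dense (p ⁻¹' (Set.range k)) := h1.preimage p.isOpenEmbedding.isOpenMap
    have h3 : p ⁻¹' (Set.range k) = Set.range s := by
      have h4 : (k : X → W) = p ∘ s := by
        funext x
        rw [← hs₁]
        rfl
      rw [h4, Set.range_comp, Set.preimage_image_eq _ p.isOpenEmbedding.injective]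
    rw [h3] at h2
    exact h2
  have hsurj : Function.Surjective s := by
    rw [← Set.range_eq_univ, ← s.isClosedEmbedding.isClosed_range.closure_eq]
    exact hd.closure_eq
  have : Surjective s := ⟨hsurj⟩
  have : Epi s.base := by
    rw [TopCat.epi_iff_surjective]; exact hsurj
  have hiso : IsIso s := IsOpenImmersion.isIso s
  exact IsPullback.of_iso_pullback ⟨by rw [w, Category.id_comp]⟩ (asIso s) hs₁ hs₂

/-- Two compactifications are dominated by a third one; over the open part nothing changes. -/
theorem exists_dominating {f : X ⟶ Y} [QuasiCompact f] (c c' : DEt.Compactification f) :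
    ∃ (W : Scheme.{u}) (k : X ⟶ W) (h : W ⟶ c.Xbar) (h' : W ⟶ c'.Xbar), IsOpenImmersion k ∧
      IsProper h ∧ IsProper h' ∧ IsPullback k (𝟙 X) h c.j ∧ IsPullback k (𝟙 X) h' c'.j ∧
      h ≫ c.fbar = h' ≫ c'.fbar := by
  let i : X ⟶ pullback c.fbar c'.fbar := pullback.lift c.j c'.j (c.fac.trans c'.fac.symm)
  have hi1 : i ≫ pullback.fst c.fbar c'.fbar = c.j := pullback.lift_fst _ _ _
  have hi2 : i ≫ pullback.snd c.fbar c'.fbar = c'.j := pullback.lift_snd _ _ _
  have : IsImmersion (i ≫ pullback.fst c.fbar c'.fbar) := by rw [hi1]; infer_instance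
  have hii : IsImmersion i := IsImmersion.of_comp i (pullback.fst c.fbar c'.fbar)
  have : QuasiCompact (c.j ≫ c.fbar) := by rw [c.fac]; infer_instance
  have : QuasiCompact c.j := QuasiCompact.of_comp c.j c.fbar
  have : QuasiCompact (i ≫ pullback.fst c.fbar c'.fbar) := by rw [hi1]; infer_instance
  have : QuasiCompact i := QuasiCompact.of_comp i (pullback.fst c.fbar c'.fbar)
  have w1 : i.toImage ≫ i.imageι ≫ pullback.fst c.fbar c'.fbar = c.j := by
    rw [Scheme.Hom.toImage_imageι_assoc, hi1]
  have w2 : i.toImage ≫ i.imageι ≫ pullback.snd c.fbar c'.fbar = c'.j := by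
    rw [Scheme.Hom.toImage_imageι_assoc, hi2]
  refine ⟨i.image, i.toImage, i.imageι ≫ pullback.fst c.fbar c'.fbar,
    i.imageι ≫ pullback.snd c.fbar c'.fbar, inferInstance, inferInstance, inferInstance,
    isPullback_of_isDominant _ _ _ w1, isPullback_of_isDominant _ _ _ w2, ?_⟩
  rw [Category.assoc, Category.assoc, pullback.condition]

end Groth.Agent.Dual.H310.DomComp
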