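import Groth.Agent.Dual.H310.OpenBC
import Groth.Agent.Dual.H310.DomComp

/-!
# Independence of the upper shriek functor of the compactification

* `nonempty_step`: replacing a compactification by a dominating one;
* `nonempty_indep`: two compactifications (over a Noetherian `Y`, `f` quasi-compact).
-/

set_option autoImplicit false

universe u

open CategoryTheory CategoryTheory.Limits AlgebraicGeometry

attribute [local instance] HasDerivedCategory.standard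

namespace Groth.Agent.Dual.H310.Indep

open Groth.Agent.Dcoh.DerSch Groth.Agent.Dual.H310.OpenBC

variable {X Y W : Scheme.{u}}

/-- The upper shriek functor does not change when the compactification is replaced by a dominating
one (on `D^+_QCoh`). -/
theorem nonempty_step [IsNoetherian Y] {f : X ⟶ Y} (c : DEt.Compactification f)
    [DCoh.HasRpush c.fbar] (h : DCoh.RpushPreservesQCoh c.fbar)
    (a : DCoh.DQCoh Y ⥤ DCoh.DQCoh c.Xbar) (adj : DCoh.RpushQ c.fbar h ⊣ a) (k : X ⟶ W)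
    [IsOpenImmersion k] (g : W ⟶ c.Xbar) [IsProper g] (sq : IsPullback k (𝟙 X) g c.j) (π : W ⟶ Y)
    (hπ : g ≫ c.fbar = π) [DCoh.HasRpush π] (hh : DCoh.RpushPreservesQCoh π)
    (b : DCoh.DQCoh Y ⥤ DCoh.DQCoh W) (adjb : DCoh.RpushQ π hh ⊣ b) :
    Nonempty (Dual3.bddι Y ⋙ b ⋙ resQ k ≅ Dual3.bddι Y ⋙ a ⋙ resQ c.j) := by
  have hZ : IsNoetherian c.Xbar := isNoetherian_of_finiteType c.fbar
  have hW : IsNoetherian W := isNoetherian_of_finiteType g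
  have := hasRpush g
  have := hasRpush (𝟙 X)
  have hg : DCoh.RpushPreservesQCoh g := preservesQCoh g
  have hi : DCoh.RpushPreservesQCoh (𝟙 X) := preservesQCoh (𝟙 X)
  have := isLeftAdjoint_rpushQ g hg
  let c' := (DCoh.RpushQ g hg).rightAdjoint
  let adjc : DCoh.RpushQ g hg ⊣ c' := Adjunction.ofIsLeftAdjoint _
  let adji : DCoh.RpushQ (𝟙 X) hi ⊣ 𝟭 (DCoh.DQCoh X) :=
    Adjunction.id.ofNatIsoLeft (rpushQIdIso X hi).symm
  obtain ⟨e₁⟩ := nonempty_rightAdjComp g c.fbar π hπ hg h hh adjc adj adjb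
  obtain ⟨e₂⟩ := nonempty_openBC sq hg hi adjc adji
  -- `D^+_QCoh(Y) ⥤ D^+_QCoh(Xbar)`
  let ap := aPlus a (isBddBelow_rightAdjoint h adj)
  let e₃ : Dual3.bddι Y ⋙ b ⋙ resQ k ≅ ap ⋙ (Dual3.bddι c.Xbar ⋙ c' ⋙ resQ k) :=
    Functor.isoWhiskerLeft (Dual3.bddι Y) (Functor.isoWhiskerRight e₁ (resQ k))
  let e₄ : ap ⋙ (Dual3.bddι c.Xbar ⋙ resQ c.j ⋙ 𝟭 (DCoh.DQCoh X)) ≅
      Dual3.bddι Y ⋙ a ⋙ resQ c.j := Iso.refl _
  exact ⟨e₃ ≪≫ Functor.isoWhiskerLeft ap e₂ ≪≫ e₄⟩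

/-- Independence of the compactification, on `D^+_QCoh`, with values in `D_QCoh`. -/
theorem nonempty_indep [IsNoetherian Y] {f : X ⟶ Y} [QuasiCompact f]
    (c₁ c₂ : DEt.Compactification f) [DCoh.HasRpush c₁.fbar] [DCoh.HasRpush c₂.fbar]
    (h₁ : DCoh.RpushPreservesQCoh c₁.fbar) (h₂ : DCoh.RpushPreservesQCoh c₂.fbar)
    (a₁ : DCoh.DQCoh Y ⥤ DCoh.DQCoh c₁.Xbar) (a₂ : DCoh.DQCoh Y ⥤ DCoh.DQCoh c₂.Xbar)
    (adj₁ : DCoh.RpushQ c₁.fbar h₁ ⊣ a₁) (adj₂ : DCoh.RpushQ c₂.fbar h₂ ⊣ a₂) :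
    Nonempty (Dual3.bddι Y ⋙ a₁ ⋙ resQ c₁.j ≅ Dual3.bddι Y ⋙ a₂ ⋙ resQ c₂.j) := by
  obtain ⟨W, k, g₁, g₂, hk, hg₁, hg₂, sq₁, sq₂, w⟩ := DomComp.exists_dominating c₁ c₂
  have hZ : IsNoetherian c₁.Xbar := isNoetherian_of_finiteType c₁.fbar
  have hW : IsNoetherian W := isNoetherian_of_finiteType g₁
  have := hasRpush (g₁ ≫ c₁.fbar)
  have hh : DCoh.RpushPreservesQCoh (g₁ ≫ c₁.fbar) := preservesQCoh _
  have := isLeftAdjoint_rpushQ (g₁ ≫ c₁.fbar) hh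
  obtain ⟨e₁⟩ := nonempty_step c₁ h₁ a₁ adj₁ k g₁ sq₁ _ rfl hh _ (Adjunction.ofIsLeftAdjoint _)
  obtain ⟨e₂⟩ := nonempty_step c₂ h₂ a₂ adj₂ k g₂ sq₂ _ w.symm hh _ (Adjunction.ofIsLeftAdjoint _)
  exact ⟨e₁.symm ≪≫ e₂⟩

end Groth.Agent.Dual.H310.Indep
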